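import Cfsg.Agent.H148.Cls.F4I
import Cfsg.Agent.H864.F4.WF4
import Cfsg.Agent.H197.Cls.RowE

/-!
# S2451 (helper27): row (C) for `F₄(q)` and `²E₆(q)`
-/

set_option autoImplicit false
set_option linter.unusedSectionVars false

open scoped Pointwise

namespace Cfsg.Agent.H27.AH.RowF

open Cfsg.Agent.Tits.Core Cfsg.Agent.Tits.Core.Bldg Cfsg.Agent.Tits.Exchange Cfsg.Agent.Tits Cfsg.Agent.FixBN
  Cfsg.Agent.H330.ClassProd Cfsg.Agent.H27.AH Cfsg.Agent.H82.AH Cfsg.Agent.H197.Cls Cfsg.Lie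

universe u

theorem dia : H148.Cls.F4Dia CoxeterMatrix.F₄ (0 : Fin 4) 1 2 3 where
  m12 := by decide
  m23 := by decide
  m34 := by decide
  m13 := by decide
  m14 := by decide
  m24 := by decide
  all := by decide

theorem w0f4 {W : Type*} [Group W] [Finite W] (cs : CoxeterSystem CoxeterMatrix.F₄ W) :
    H148.Cls.W0F4 cs 0 1 2 3 :=
  H864.F4.Wf.w0_four cs (i1 := 0) (i2 := 1) (i3 := 2) (i4 := 3) (by decide) (by decide) (by decide) (by decide)
    (by decide) (by decide) (by decide)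

/-- the conclusion from the package -/
theorem notC_of_hasDis_F4 {p : ℕ} [hp : Fact p.Prime] {G : Type u} [Group G] {qs : Fin 4 → ℕ}
    (h : HasDis p G CoxeterMatrix.F₄ qs (fun _ _ _ w => w = 1)) : NotC p G := by
  obtain ⟨W, _, _, cs, C, _, _, _, Δ, S, hth, hq, hfaith, hdis⟩ := h
  intro a b c ha hb hc hall hpc
  have hpe : PE p c := by
    obtain ⟨k, hk⟩ := hpc
    exact ⟨k, by rw [← hk, pow_orderOf_eq_one]⟩
  have hgood := H148.Cls.AllConj.good hall hpe
  refine H148.Cls.type_f4_of S hth hgood (fun w hw => hdis a b hgood w hw) hall dia (w0f4 cs) ?_ ?_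
  · by_contra hcon
    push Not at hcon
    exact ha (hfaith a hcon)
  · by_contra hcon
    push Not at hcon
    exact hb (hfaith b hcon)

/-- **`F₄(q)`** -/
theorem notC_F4 (F : Type) [Field F] [Fintype F] (p : ℕ) [CharP F p] : NotC p ↥(chevF4.group F) := by
  have := fact_prime F p
  exact notC_of_hasDis_F4 (hasDis_F4_one F p)

/-- **`²E₆(q)`** -/
theorem notC_twE6 (F : Type) [Field F] [Fintype F] (p : ℕ) [CharP F p] {q : ℕ} (hqp : IsPrimePow q)
    (hF : Fintype.card F = q ^ 2) : NotC p ↥(twistedE6 F q) := by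
  have := fact_prime F p
  exact notC_of_hasDis_F4 (hasDis_twE6_one F p hqp hF)

end Cfsg.Agent.H27.AH.RowF
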